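import Mathlib
import Cfsg.Agent.Lib.BK.Main

/-!
# Nilpotent blocks: height-zero characters have the same degree
-/

set_option linter.unusedSectionVars false
set_option linter.style.haveILetI false
set_option autoImplicit false

namespace Cfsg.Agent.Lib.BK.NormalB

open Cfsg MonoidAlgebra
open Cfsg.Agent.Lib.Blocks.Local Cfsg.Agent.Lib.Blocks.Central

universe u

variable {G : Type u} [Group G] [Fintype G] {M : Ideal AlgInt} {p : ℕ} {B : Set (IrrCharacter G)} {P : Subgroup G}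

/-- In a nilpotent block all characters of height zero have the same degree. -/
theorem same_degree_height_zero [hp : Fact p.Prime] (hM : IsPModular p M) (hP : IsDefectGroup p M B P)
    (hnil : IsNilpotentBlock p M B) :
    ∃ d : ℕ, ∀ χ : IrrCharacter G, χ ∈ B → blockHeight p B (χ : G → ℂ) = 0 → charDegree (χ : G → ℂ) = d := by
  classical
  haveI := isPrime_of_pModular hM
  haveI := Cfsg.Agent.Lib.Char.Ortho.finite_irrCharacter (G := G)
  letI : Fintype (IrrCharacter G) := Fintype.ofFinite _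
  have hB := hnil.1
  obtain ⟨e, hmax⟩ := Cfsg.Agent.Lib.BP.Nil4.exists_pair_of_defect hM hB hP
  obtain ⟨χ₀, hχ₀, h0, hs⟩ := Cfsg.Agent.Lib.BP.Nil4.exists_height_zero (p := p) (isPBlock_nonempty hB)
  refine ⟨charDegree (χ₀ : G → ℂ), fun τ hτ h0τ => ?_⟩
  have hint : Cfsg.Agent.Lib.BP.Rob1.StarInt p M B P e :=
    fun _ hgen hst _ hχ => Cfsg.Agent.Lib.Star.star_isGenChar hM hmax hgen hst hχ
  obtain ⟨ν, hν⟩ := Cfsg.Agent.Lib.BP.Nil4.exists_star_eq' hM hnil hmax hint hχ₀ h0 hs hτ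
  have hst := Cfsg.Agent.Lib.BP.Nil2.isStableLam_of_nilpotent hM hmax hnil
    (Cfsg.Agent.Lib.Char.Basic.isClassFunction_of_isIrrCharacter ν.2)
  have h1 := Cfsg.Agent.Lib.BP.Rob1.starFun_one hM hmax hst hχ₀
  rw [hν] at h1
  have cτ := Cfsg.Agent.Lib.Char.Degree.charDegree_natCast (Cfsg.Agent.Lib.Char.Basic.isCharacter_of_isIrrCharacter τ.2)
  have cν := Cfsg.Agent.Lib.Char.Degree.charDegree_natCast (Cfsg.Agent.Lib.Char.Basic.isCharacter_of_isIrrCharacter ν.2)
  have cχ := Cfsg.Agent.Lib.Char.Degree.charDegree_natCast (Cfsg.Agent.Lib.Char.Basic.isCharacter_of_isIrrCharacter χ₀.2)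
  have hmul : charDegree (τ : G → ℂ) = charDegree (ν : P → ℂ) * charDegree (χ₀ : G → ℂ) := by
    have : ((charDegree (τ : G → ℂ) : ℕ) : ℂ) = ((charDegree (ν : P → ℂ) : ℕ) : ℂ) * ((charDegree (χ₀ : G → ℂ) : ℕ) : ℂ) := by
      rw [cτ, cν, cχ, h1]
    exact_mod_cast this
  have hpν := Cfsg.Agent.Lib.Char.Degree.charDegree_pos ν.2
  have hpχ := Cfsg.Agent.Lib.Char.Degree.charDegree_pos χ₀.2
  have hfac : (charDegree (τ : G → ℂ)).factorization p =
      (charDegree (ν : P → ℂ)).factorization p + (charDegree (χ₀ : G → ℂ)).factorization p := by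
    rw [hmul, Nat.factorization_mul hpν.ne' hpχ.ne']
    rfl
  rw [blockHeight] at h0τ
  have hv : (charDegree (ν : P → ℂ)).factorization p = 0 := by
    omega
  have hPp : IsPGroup p P := Cfsg.Agent.Lib.Blocks.Defect2.isDefectGroup_isPGroup hP
  obtain ⟨a, ha⟩ := IsPGroup.iff_card.mp hPp
  have hdvd := Cfsg.Agent.Lib.Char.Degree.charDegree_dvd_card ν.2
  rw [ha] at hdvd
  obtain ⟨b, -, hb⟩ := (Nat.dvd_prime_pow hp.out).mp hdvd
  rw [hb, Nat.Prime.factorization_pow hp.out] at hv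
  simp at hv
  rw [hb, hv, pow_zero, one_mul] at hmul
  exact hmul

end Cfsg.Agent.Lib.BK.NormalB
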