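import Mathlib
import Cfsg.Agent.Lib.BlockH.AbelianDefect

/-!
# Blocks with a normal defect group: a criterion for nilpotency

If the defect group `P` of `B` is normal in `G`, `(P, e)` is a maximal pair, and every `p`-regular element stabilizing
`e` centralizes `P`, then `B` is nilpotent.
-/

set_option linter.unusedSectionVars false
set_option linter.style.haveILetI false
set_option autoImplicit false

namespace Cfsg.Agent.Lib.BK.NormalF

open Cfsg MonoidAlgebra
open Cfsg.Agent.Lib.Blocks.Local Cfsg.Agent.Lib.Blocks.Central Cfsg.Agent.Lib.Blocks.Brauer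
open Cfsg.Agent.Lib.Blocks.Induced Cfsg.Agent.Lib.Blocks.Weak Cfsg.Agent.Lib.Blocks.Third
open Cfsg.Agent.Lib.Blocks.Defect Cfsg.Agent.Lib.Blocks.Defect2 Cfsg.Agent.Lib.BlockT.SylowIn
open Cfsg.Agent.Lib.Blocks.Inducing Cfsg.Agent.Lib.Blocks.FMT
open Cfsg.Agent.Lib.BlockH.Pairs Cfsg.Agent.Lib.BlockH.BrauerMap Cfsg.Agent.Lib.BlockH.Transport
open Cfsg.Agent.Lib.BlockH.Subpair Cfsg.Agent.Lib.BlockH.SubpairLE Cfsg.Agent.Lib.BlockH.ConjPair
open Cfsg.Agent.Lib.BlockH.MaxPair Cfsg.Agent.Lib.BlockH.Sylow Cfsg.Agent.Lib.BlockH.Defects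
open Cfsg.Agent.Lib.BlockH.FusionB Cfsg.Agent.Lib.BlockH.StabBlock Cfsg.Agent.Lib.BlockH.StabDefect
open Cfsg.Agent.Lib.BlockH.Descent Cfsg.Agent.Lib.BlockH.StableIndex
open Cfsg.Agent.Lib.BlockH.Saturation Cfsg.Agent.Lib.BlockH.Nilpotent
open Cfsg.FusionSystem

universe u

variable {G : Type u} [Group G] [Fintype G] {M : Ideal AlgInt} {p : ℕ}
variable {B : Set (IrrCharacter G)} {P Q : Subgroup G}
  {e : Set (IrrCharacter (Subgroup.centralizer (P : Set G)))}
  {f : Set (IrrCharacter (Subgroup.centralizer (Q : Set G)))}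

/-- A subgroup containing a `p`-power of a `p`-regular element contains the element. -/
theorem mem_of_pow_mem [Fact p.Prime] {S : Subgroup G} {x : G} (hx : ¬ p ∣ orderOf x) {k : ℕ} (h : x ^ (p ^ k) ∈ S) :
    x ∈ S := by
  have hp : p.Prime := Fact.out
  have hc : Nat.Coprime (p ^ k) (orderOf x) :=
    Nat.Coprime.pow_left _ ((Nat.Prime.coprime_iff_not_dvd hp).mpr hx)
  have hb : ((p ^ k : ℕ) : ℤ) * Nat.gcdA (p ^ k) (orderOf x) + (orderOf x : ℤ) * Nat.gcdB (p ^ k) (orderOf x) = 1 := by
    have := Nat.gcd_eq_gcd_ab (p ^ k) (orderOf x)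
    rw [hc.gcd_eq_one] at this
    push_cast at this ⊢
    exact this.symm
  have e1 : x = (x ^ (p ^ k)) ^ (Nat.gcdA (p ^ k) (orderOf x)) := by
    calc x = x ^ (((p ^ k : ℕ) : ℤ) * Nat.gcdA (p ^ k) (orderOf x) + (orderOf x : ℤ) * Nat.gcdB (p ^ k) (orderOf x)) := by
          rw [hb, zpow_one]
      _ = _ := by
          rw [zpow_add, zpow_mul, zpow_mul, zpow_natCast, zpow_natCast, pow_orderOf_eq_one, one_zpow, mul_one]
  rw [e1]
  exact S.zpow_mem h _

/-- **The criterion.** -/
theorem nilpotent_of_normal [Fact p.Prime] (hM : IsPModular p M) (hmax : IsMaximalBrauerPair p M B P e)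
    (hPn : P.Normal)
    (hT : ∀ x : G, StabilizesBlock (Subgroup.centralizer (P : Set G)) e x → ¬ p ∣ orderOf x →
      x ∈ Subgroup.centralizer (P : Set G)) :
    IsNilpotentBlock p M B := by
  classical
  haveI := isPrime_of_pModular hM
  have hPe := hmax.1.1
  have hp : p.Prime := Fact.out
  have key : ∀ (n : ℕ) (Q : Subgroup G), Q ≤ P → Nat.card P - Nat.card Q = n →
      ∀ f : Set (IrrCharacter (Subgroup.centralizer (Q : Set G))), IsPBlock M f → SubpairLE p M Q f P e →
        ∀ x ∈ stabSub Q f, ¬ p ∣ orderOf x → x ∈ Subgroup.centralizer (Q : Set G) := by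
    intro n
    induction n using Nat.strong_induction_on with
    | _ n ih =>
      intro Q hQP hn f hf hle x hx hxR
      by_cases hQPe : Q = P
      · subst hQPe
        have hfe : f = e := subpairLE_unique_aux hM hPe _ Q le_rfl rfl f e hf hle hPe.2 Relation.ReflTransGen.refl
        subst hfe
        exact hT x hx.2 hxR
      have hQp : IsPGroup p Q := hPe.1.to_le hQP
      set Nn : Subgroup G := P ⊓ Subgroup.normalizer (Q : Set G) with hNn
      have hNnP : Nn ≤ P := inf_le_left
      have hNnN : Nn ≤ Subgroup.normalizer (Q : Set G) := inf_le_right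
      have hQNn : Q ≤ Nn := le_inf hQP Subgroup.le_normalizer
      have hlt : Q < Nn := by
        refine lt_of_le_of_ne hQNn ?_
        intro h
        have := Cfsg.Agent.Lib.LocalStruct.Minimal.le_of_inf_normalizer_le hPe.1 h.symm.le hQP
        exact hQPe (le_antisymm hQP this)
      obtain ⟨gN, hgN, hgNle⟩ := exists_subpairLE hM hPe hNnP
      obtain ⟨f₂, hf₂, hf₂le⟩ := exists_subpairLE hM (⟨hPe.1.to_le hNnP, hgN⟩ : IsBrauerPair p M Nn gN) hQNn
      have hf₂e : f₂ = f := subpairLE_unique_aux hM hPe _ Q hQP rfl f₂ f hf₂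
        (SubpairLE_trans hf₂le hgNle) hf hle
      subst hf₂e
      have hnor : IsNormalSubpair p M Q f₂ Nn gN :=
        isNormalSubpair_of_subpairLE hM ⟨hQp, hf⟩ hf₂le hNnN
      have hQx : Q.map (MulAut.conj x).toMonoidHom = Q := map_conj_eq_of_mem_normalizer hx.1
      have hPnorm : ∀ t : G, t ∈ Subgroup.normalizer (P : Set G) := fun t =>
        Subgroup.normalizer_eq_top_iff.mpr hPn ▸ Subgroup.mem_top t
      have hNnconj : ∀ t : G, t ∈ Subgroup.normalizer (Q : Set G) → Nn.map (MulAut.conj t).toMonoidHom = Nn := by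
        intro t ht
        ext g
        rw [mem_map_conj, hNn, Subgroup.mem_inf, Subgroup.mem_inf]
        constructor
        · rintro ⟨h1, h2⟩
          constructor
          · have h3 := hPn.conj_mem _ h1 t
            have e : t * (t⁻¹ * g * t) * t⁻¹ = g := by group
            rwa [e] at h3
          · have h3 := Subgroup.mul_mem _ (Subgroup.mul_mem _ ht h2) (Subgroup.inv_mem _ ht)
            have e : t * (t⁻¹ * g * t) * t⁻¹ = g := by group
            rwa [e] at h3
        · rintro ⟨h1, h2⟩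
          constructor
          · have h3 := hPn.conj_mem _ h1 t⁻¹
            simpa using h3
          · have h3 := Subgroup.mul_mem _ (Subgroup.mul_mem _ (Subgroup.inv_mem _ ht) h2) ht
            exact h3
      have hNx : Nn.map (MulAut.conj x).toMonoidHom = Nn := hNnconj x hx.1
      have hnorx := isNormalSubpair_conj (x := x) hQx rfl hnor
      rw [blockMap_eq_of_stabilizes hQx hf hx.2] at hnorx
      have hfull : ∀ y : G, SubpairLE p M (Q.map (MulAut.conj y).toMonoidHom)
          (blockMap (conjEquivOf y rfl) f₂) P e →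
          Nat.card (P ⊓ Subgroup.normalizer ((Q.map (MulAut.conj y).toMonoidHom : Subgroup G) : Set G) : Subgroup G)
            ≤ Nat.card (P ⊓ Subgroup.normalizer (Q : Set G) : Subgroup G) := by
        intro y _
        have hm : (P ⊓ Subgroup.normalizer ((Q.map (MulAut.conj y).toMonoidHom : Subgroup G) : Set G) :
            Subgroup G).map (MulAut.conj y⁻¹).toMonoidHom ≤ P ⊓ Subgroup.normalizer (Q : Set G) := by
          rintro _ ⟨u, hu, rfl⟩
          have hu' := Subgroup.mem_inf.mp hu
          refine Subgroup.mem_inf.mpr ⟨?_, ?_⟩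
          · exact hPn.conj_mem _ hu'.1 _
          · have hback : (Q.map (MulAut.conj y).toMonoidHom).map (MulAut.conj y⁻¹).toMonoidHom = Q := by
              ext g
              rw [mem_map_conj, mem_map_conj]
              have e : y⁻¹ * (y⁻¹⁻¹ * g * y⁻¹) * y = g := by group
              rw [e]
            exact conj_mem_normalizer hback hu'.2
        calc Nat.card (P ⊓ Subgroup.normalizer ((Q.map (MulAut.conj y).toMonoidHom : Subgroup G) : Set G) : Subgroup G)
            = Nat.card ((P ⊓ Subgroup.normalizer ((Q.map (MulAut.conj y).toMonoidHom : Subgroup G) : Set G) :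
                Subgroup G).map (MulAut.conj y⁻¹).toMonoidHom) :=
              (Subgroup.card_map_of_injective (MulAut.conj y⁻¹).injective).symm
          _ ≤ _ := Subgroup.card_le_of_le hm
      have hUL : Nn.map (MulAut.conj x).toMonoidHom ≤ prodL (P ⊓ Subgroup.normalizer (Q : Set G)) Q inf_le_right := by
        rw [hNx]
        exact le_prodL _ _ _
      obtain ⟨c₀, hc₀, hext⟩ := exists_centralizer_conj_subpairLE hM hmax hQP hf hle hfull hUL hnorx
      have h1 := subpairLE_conj_mul x c₀ hext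
      have hy₁N : c₀ * x ∈ Subgroup.normalizer (Q : Set G) :=
        Subgroup.mul_mem _ (centralizer_le_normalizer'' Q hc₀) hx.1
      have hNy : Nn.map (MulAut.conj (c₀ * x)).toMonoidHom = Nn := hNnconj _ hy₁N
      have h2 := subpairLE_of_map_eq hNy h1
      have h3 : blockMap (conjEquivOf (c₀ * x) hNy) gN = gN :=
        subpairLE_unique_aux hM hPe _ Nn hNnP rfl _ gN (isPBlock_blockMap _ hgN) h2 hgN hgNle
      have hy₁ : c₀ * x ∈ stabSub Nn gN := ⟨mem_normalizer_of_map_eq hNy, stabilizesBlock_of_eq hNy hgN h3⟩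
      obtain ⟨k, m', hm', hord⟩ := Nat.exists_eq_pow_mul_and_not_dvd (n := orderOf (c₀ * x))
        (orderOf_pos _).ne' p hp.ne_one
      have hyS : (c₀ * x) ^ (p ^ k) ∈ stabSub Nn gN := Subgroup.pow_mem _ hy₁ _
      have hyR : ¬ p ∣ orderOf ((c₀ * x) ^ (p ^ k)) := by
        intro h
        apply hm'
        have h4 : ((c₀ * x) ^ (p ^ k)) ^ m' = 1 := by
          rw [← pow_mul, ← hord, pow_orderOf_eq_one]
        exact h.trans (orderOf_dvd_of_pow_eq_one h4)
      have hcard : Nat.card P - Nat.card Nn < n := by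
        have h4 : Nat.card Q < Nat.card Nn := card_lt_of_lt' hlt
        have h5 : Nat.card Nn ≤ Nat.card P := Subgroup.card_le_of_le hNnP
        omega
      have h5 := ih _ hcard Nn hNnP rfl gN hgN hgNle _ hyS hyR
      have h6 : (c₀ * x) ^ (p ^ k) ∈ Subgroup.centralizer (Q : Set G) := Subgroup.centralizer_le hQNn h5
      -- the two actions agree
      have hact : ∀ (t : ℕ), ∀ q ∈ Q, (c₀ * x) ^ t * q * ((c₀ * x) ^ t)⁻¹ = x ^ t * q * (x ^ t)⁻¹ := by
        intro t
        induction t with
        | zero => intro q _; simp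
        | succ t ih' =>
          intro q hq
          have hq' : x * q * x⁻¹ ∈ Q := (Subgroup.mem_normalizer_iff.mp hx.1 q).mp hq
          have e1 : c₀ * (x * q * x⁻¹) * c₀⁻¹ = x * q * x⁻¹ := by
            have := Subgroup.mem_centralizer_iff.mp hc₀ _ hq'
            rw [← this]
            group
          calc (c₀ * x) ^ (t + 1) * q * ((c₀ * x) ^ (t + 1))⁻¹
              = (c₀ * x) ^ t * (c₀ * (x * q * x⁻¹) * c₀⁻¹) * ((c₀ * x) ^ t)⁻¹ := by
                rw [pow_succ]
                group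
            _ = x ^ t * (x * q * x⁻¹) * (x ^ t)⁻¹ := by rw [e1, ih' _ hq']
            _ = _ := by
                rw [pow_succ]
                group
      have h7 : x ^ (p ^ k) ∈ Subgroup.centralizer (Q : Set G) := by
        rw [Subgroup.mem_centralizer_iff]
        intro q hq
        have h8 := hact (p ^ k) q hq
        have h9 := Subgroup.mem_centralizer_iff.mp h6 q hq
        have h10 : (c₀ * x) ^ (p ^ k) * q * ((c₀ * x) ^ (p ^ k))⁻¹ = q := by
          rw [← h9]
          group
        rw [h10] at h8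
        calc q * x ^ (p ^ k) = (x ^ (p ^ k) * q * (x ^ (p ^ k))⁻¹) * x ^ (p ^ k) := by rw [← h8]
          _ = _ := by group
      exact mem_of_pow_mem hxR h7
  refine ⟨hmax.1.2.1, fun Q f hQf x hxN hxS hxR => ?_⟩
  obtain ⟨y, hy⟩ := exists_conj_subpairLE hM hmax hQf
  rw [conjBlock_eq] at hy
  have hf₁ : IsPBlock M (blockMap (conjEquivOf y (rfl : Q.map (MulAut.conj y).toMonoidHom = _)) f) :=
    isPBlock_blockMap _ hQf.1.2
  have hQ₁P : Q.map (MulAut.conj y).toMonoidHom ≤ P := le_of_subpairLE hy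
  have hxS' : y * x * y⁻¹ ∈ stabSub (Q.map (MulAut.conj y).toMonoidHom)
      (blockMap (conjEquivOf y rfl) f) :=
    ⟨conj_mem_normalizer rfl hxN, stabilizesBlock_conj rfl hxS⟩
  have hxR' : ¬ p ∣ orderOf (y * x * y⁻¹) := by
    have e : y * x * y⁻¹ = MulAut.conj y x := rfl
    rw [e, MulEquiv.orderOf_eq]
    exact hxR
  have hx₁ := key _ _ hQ₁P rfl _ hf₁ hy _ hxS' hxR'
  rw [Subgroup.mem_centralizer_iff]
  intro q hq
  have h8 := Subgroup.mem_centralizer_iff.mp hx₁ (y * q * y⁻¹) ⟨q, hq, rfl⟩
  have h9 : y * (q * x) * y⁻¹ = y * (x * q) * y⁻¹ := by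
    calc y * (q * x) * y⁻¹ = y * q * y⁻¹ * (y * x * y⁻¹) := by group
      _ = y * x * y⁻¹ * (y * q * y⁻¹) := h8
      _ = _ := by group
  simpa using h9

end Cfsg.Agent.Lib.BK.NormalF
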