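import Mathlib
import Cfsg.Agent.Lib.BK.NormalF
import Cfsg.Agent.Lib.Blocks.Quot
import Cfsg.Agent.Lib.BlockT.NormalP
import Cfsg.Agent.Lib.BlockH.Idem

/-!
# Tools for blocks with a normal defect group

* `isBrauerPairOf_of_constituent`: if `D` is a normal `p`-subgroup and `ξ` is a constituent of the restriction
  of `χ` to `C_G(D)`, then `(D, block of ξ)` is a pair of the block of `χ`.
* `eq_of_isBrauerPairOf`: a pair determines its block.
* `sameBlock_of_regular`: central characters agreeing on `p`-regular elements give one block.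
* `sameBlock_of_comp`: inflation along a central `p`-kernel reflects blocks.
* `classInner_trans`: transitivity of the relation "constituent of the restriction".
-/

set_option linter.unusedSectionVars false
set_option linter.style.haveILetI false
set_option autoImplicit false

namespace Cfsg.Agent.Lib.BK.NormalL

open Cfsg MonoidAlgebra
open Cfsg.Agent.Lib.Blocks.Local Cfsg.Agent.Lib.Blocks.Central
open Cfsg.Agent.Lib.BlockH.Pairs Cfsg.Agent.Lib.BlockH.BrauerMap
open Cfsg.Agent.Lib.BlockT.Normal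
open Cfsg.Agent.Lib.Char.Basic Cfsg.Agent.Lib.Char.Ortho
open scoped ComplexConjugate

universe u

variable {G : Type u} [Group G] [Fintype G] {M : Ideal AlgInt} {p : ℕ}

/-- **L1.** -/
theorem isBrauerPairOf_of_constituent (hM : IsPModular p M) {D : Subgroup G} (hD : IsPGroup p D)
    (hDn : D.Normal) [Fintype (Subgroup.centralizer (D : Set G))] (χ : IrrCharacter G)
    (ξ : IrrCharacter (Subgroup.centralizer (D : Set G)))
    (hcon : classInner (fun c : Subgroup.centralizer (D : Set G) => (χ : G → ℂ) c)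
      (ξ : Subgroup.centralizer (D : Set G) → ℂ) ≠ 0) :
    IsBrauerPairOf p M (blockOf M (χ : G → ℂ)) D
      (blockOf M (ξ : Subgroup.centralizer (D : Set G) → ℂ)) := by
  classical
  haveI := isPrime_of_pModular hM
  haveI := Cfsg.Agent.Lib.Char.Ortho.finite_irrCharacter (G := G)
  letI : Fintype (IrrCharacter G) := Fintype.ofFinite _
  have hCn : (Subgroup.centralizer (D : Set G)).Normal := inferInstance
  have hB : IsPBlock M (blockOf M (χ : G → ℂ)) := ⟨χ, rfl⟩
  refine ⟨⟨hD, ⟨ξ, rfl⟩⟩, hB, ?_⟩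
  intro ξ' hξ'
  set B := blockOf M (χ : G → ℂ) with hBdef
  let a : Subgroup.centralizer (D : Set G) → ℂ := fun c => blockCoeff B c
  have ha : ∀ (t : G) (n : Subgroup.centralizer (D : Set G)),
      a ⟨t * n * t⁻¹, hCn.conj_mem n n.2 t⟩ = a n := fun t n => blockCoeff_conj_invariant B _ _
  have h1 := sum_mul_eq_of_constituent hCn χ.2 ξ.2 hcon a ha
  have hext : Cfsg.extendByZero (Subgroup.centralizer (D : Set G)) a = blockCoeff B := by
    funext g
    by_cases hg : g ∈ Subgroup.centralizer (D : Set G)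
    · rw [Cfsg.Agent.Lib.Char.Induced.extendByZero_of_mem _ _ hg]
    · rw [Cfsg.Agent.Lib.Char.Induced.extendByZero_of_not_mem _ _ hg,
        Cfsg.Agent.Lib.BlockH.Idem.blockCoeff_eq_zero_of_not_mem_centralizer hM D hDn hD hB hg]
  have h2 : (∑ n : Subgroup.centralizer (D : Set G), a n * (χ : G → ℂ) n) / (χ : G → ℂ) 1 = 1 := by
    rw [← sum_extendByZero_mul, hext]
    have h3 := omegaHom_idem B χ
    rw [omegaHom_apply, lin_apply, if_pos (mem_blockOf_self χ)] at h3
    exact h3
  have hl : ∀ c : Subgroup.centralizer (D : Set G), MemLocalRing M (a c) :=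
    fun c => idem_mem_localCenter hB (c : G)
  have hb : ∀ g h : Subgroup.centralizer (D : Set G), a (h * g * h⁻¹) = a g := fun g h =>
    blockCoeff_conj_invariant B (g : G) (h : G)
  have h3 := sum_mul_sub_mem_of_sameBlock M (isClassFunction_of_isIrrCharacter ξ.2)
    (isClassFunction_of_isIrrCharacter ξ'.2) hξ' a hb hl
  rw [← h1, h2] at h3
  have h4 : brauerOmega D (blockCoeff B) (ξ' : Subgroup.centralizer (D : Set G) → ℂ) =
      (∑ g : Subgroup.centralizer (D : Set G), a g * (ξ' : Subgroup.centralizer (D : Set G) → ℂ) g) /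
        (ξ' : Subgroup.centralizer (D : Set G) → ℂ) 1 := by
    rw [brauerOmega_eq_sum, Finset.sum_div]
  rw [h4]
  exact memLocalIdeal_sub_comm h3

/-- A pair determines its block. -/
theorem eq_of_isBrauerPairOf [Fact p.Prime] (hM : IsPModular p M) {Q : Subgroup G} {B B' : Set (IrrCharacter G)}
    [Fintype (Subgroup.centralizer (Q : Set G))] {e : Set (IrrCharacter (Subgroup.centralizer (Q : Set G)))}
    (h : IsBrauerPairOf p M B Q e) (h' : IsBrauerPairOf p M B' Q e) : B = B' := by
  classical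
  haveI := isPrime_of_pModular hM
  haveI := Cfsg.Agent.Lib.Char.Ortho.finite_irrCharacter (G := G)
  letI : Fintype (IrrCharacter G) := Fintype.ofFinite _
  by_contra hne
  obtain ⟨ξ, hξ⟩ := isPBlock_nonempty h.1.2
  have hd := disjoint_of_isPBlock h.2.1 h'.2.1 hne
  have h1 := h.2.2 ξ hξ
  have h2 := h'.2.2 ξ hξ
  rw [brauerOmega_eq_brH ((idem B : Subalgebra.center ℂ (GA G)) : GA G) (blockCoeff B) (fun g => rfl)] at h1
  rw [brauerOmega_eq_brH ((idem B' : Subalgebra.center ℂ (GA G)) : GA G) (blockCoeff B') (fun g => rfl)] at h2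
  have h3 : ((idem B : Subalgebra.center ℂ (GA G)) : GA G) * ((idem B' : Subalgebra.center ℂ (GA G)) : GA G) = 0 := by
    have := idem_mul_idem_of_disjoint hd
    exact congrArg Subtype.val this
  exact not_both_of_mul_eq_zero hM h.1.1 (BrInv.of_central (isCentral_of_mem _))
    (BrInv.of_central (isCentral_of_mem _)) (idem_mem_localCenter' h.2.1) (idem_mem_localCenter' h'.2.1) h3 h1 h2

/-- **L3.** Agreement of central characters on `p`-regular elements. -/
theorem sameBlock_of_regular [Fact p.Prime] (hM : IsPModular p M) {χ χ' : IrrCharacter G}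
    (h : ∀ g : G, ¬ p ∣ orderOf g → MemLocalIdeal M (centralChar (χ : G → ℂ) g - centralChar (χ' : G → ℂ) g)) :
    SameBlock M (χ : G → ℂ) (χ' : G → ℂ) := by
  classical
  haveI := isPrime_of_pModular hM
  haveI := Cfsg.Agent.Lib.Char.Ortho.finite_irrCharacter (G := G)
  letI : Fintype (IrrCharacter G) := Fintype.ofFinite _
  letI := Fintype.ofFinite (ConjClasses G)
  have hB : IsPBlock M (blockOf M (χ : G → ℂ)) := ⟨χ, rfl⟩
  set B := blockOf M (χ : G → ℂ) with hBdef
  by_contra hne
  have h1 := omegaHom_idem B χ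
  have h2 := omegaHom_idem B χ'
  rw [if_pos (mem_blockOf_self χ)] at h1
  rw [if_neg (show χ' ∉ B from hne)] at h2
  have h3 : MemLocalIdeal M (omegaHom χ (idem B) - omegaHom χ' (idem B)) := by
    rw [omegaHom_eq_sum_classes, omegaHom_eq_sum_classes, ← Finset.sum_sub_distrib]
    apply memLocalIdeal_sum
    intro C _
    rw [← mul_sub]
    by_cases hC : p ∣ orderOf (Quotient.out C)
    · have h4 : ((idem B : Subalgebra.center ℂ (GA G)) : GA G).coeff (Quotient.out C) = 0 :=
        Cfsg.Agent.Lib.BlockP.Stable.blockCoeff_eq_zero hM hB hC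
      rw [h4, zero_mul]
      exact memLocalIdeal_zero
    · exact memLocalIdeal_mul_left (idem_mem_localCenter hB _) (h _ hC)
  rw [h1, h2, sub_zero] at h3
  exact one_notMemLocalIdeal h3

/-- Lifting a `p`-regular element through a surjection with a `p`-kernel. -/
theorem exists_lift_regular {H : Type*} [Group H] [Finite H] [hp : Fact p.Prime] (π : G →* H)
    (hπ : Function.Surjective π) {y : H} (hy : ¬ p ∣ orderOf y) :
    ∃ g : G, π g = y ∧ ¬ p ∣ orderOf g := by
  obtain ⟨g₀, rfl⟩ := hπ y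
  obtain ⟨a, m, hm, hord⟩ := Nat.exists_eq_pow_mul_and_not_dvd (n := orderOf g₀)
    (orderOf_pos _).ne' p hp.out.ne_one
  set t := orderOf (π g₀) with ht
  have hc : Nat.Coprime (p ^ a) t := Nat.Coprime.pow_left _ ((Nat.Prime.coprime_iff_not_dvd hp.out).mpr hy)
  have htd : t ∣ p ^ a * m := by
    rw [← hord]
    exact orderOf_map_dvd π g₀
  have htm : t ∣ m := hc.symm.dvd_of_dvd_mul_left htd
  obtain ⟨u, hu⟩ : ∃ u : ℕ, p ^ a * u ≡ 1 [MOD t] := by
    by_cases ht1 : 1 < t
    · obtain ⟨u, -, hu⟩ := Nat.exists_mul_mod_eq_one_of_coprime hc ht1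
      refine ⟨u, ?_⟩
      rw [Nat.ModEq, hu, Nat.mod_eq_of_lt ht1]
    · have : t = 1 := by
        have : 0 < t := orderOf_pos _
        omega
      exact ⟨0, by rw [this]; exact Nat.modEq_one⟩
  refine ⟨g₀ ^ (p ^ a * u), ?_, ?_⟩
  · rw [map_pow]
    have := pow_eq_pow_iff_modEq.mpr hu
    rw [← ht] at *
    simpa using this
  · intro hdvd
    apply hm
    refine hdvd.trans (orderOf_dvd_of_pow_eq_one ?_)
    rw [← pow_mul, mul_comm (p ^ a) u, mul_assoc, ← hord, pow_mul', pow_orderOf_eq_one, one_pow]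

/-- **L4.** Inflation along a `p`-kernel centralized by `G` reflects blocks. -/
theorem sameBlock_of_comp {H : Type u} [Group H] [Fintype H] [hp : Fact p.Prime] (hM : IsPModular p M)
    (π : G →* H) (hπ : Function.Surjective π) (hker : IsPGroup p π.ker)
    (hcen : ∀ n ∈ π.ker, ∀ g : G, n * g = g * n) {η η' : IrrCharacter H}
    (h : SameBlock M ((η : H → ℂ) ∘ π) ((η' : H → ℂ) ∘ π)) :
    SameBlock M (η : H → ℂ) (η' : H → ℂ) := by
  classical
  haveI := Cfsg.Agent.Lib.Char.Ortho.finite_irrCharacter (G := G)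
  letI : Fintype (IrrCharacter G) := Fintype.ofFinite _
  haveI := Cfsg.Agent.Lib.Char.Ortho.finite_irrCharacter (G := H)
  letI : Fintype (IrrCharacter H) := Fintype.ofFinite _
  refine sameBlock_of_regular hM fun y hy => ?_
  obtain ⟨g, rfl, hg⟩ := exists_lift_regular π hπ hy
  have h1 := Cfsg.Agent.Lib.Blocks.Quot.centralChar_comp π hπ (η : H → ℂ) g
  have h2 := Cfsg.Agent.Lib.Blocks.Quot.centralChar_comp π hπ (η' : H → ℂ) g
  have hrel : (Subgroup.centralizer ({g} : Set G)).relIndex (Cfsg.Agent.Lib.Blocks.Quot.cenMod π g) = 1 := by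
    rw [Cfsg.Agent.Lib.Blocks.Quot.cenMod_eq π hπ hker hg (fun n hn => hcen n hn g)]
    exact Subgroup.relIndex_self _
  rw [hrel] at h1 h2
  have h3 := h g
  rw [h1, h2] at h3
  simpa using h3

/-- **Transitivity of constituents.** -/
theorem classInner_trans {N : Subgroup G} [Fintype N] {χ : G → ℂ} (hχ : IsCharacter G χ)
    {ψ : IrrCharacter G} {θ : IrrCharacter N} (h1 : classInner χ (ψ : G → ℂ) ≠ 0)
    (h2 : classInner (fun n : N => (ψ : G → ℂ) n) (θ : N → ℂ) ≠ 0) :
    classInner (fun n : N => χ n) (θ : N → ℂ) ≠ 0 := by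
  classical
  haveI := Cfsg.Agent.Lib.Char.Ortho.finite_irrCharacter (G := G)
  letI : Fintype (IrrCharacter G) := Fintype.ofFinite _
  have hexp := Cfsg.Agent.Lib.Char.Complete.classFunction_eq_sum (isClassFunction_of_isCharacter hχ)
  have hres : ∀ φ : IrrCharacter G, ∃ m : ℕ, classInner (fun n : N => (φ : G → ℂ) n) (θ : N → ℂ) = m :=
    fun φ => exists_nat_classInner (isCharacter_restrict N (isCharacter_of_isIrrCharacter φ.2)) (isCharacter_of_isIrrCharacter θ.2)
  have hch : ∀ φ : IrrCharacter G, ∃ m : ℕ, classInner χ (φ : G → ℂ) = m :=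
    fun φ => exists_nat_classInner hχ (isCharacter_of_isIrrCharacter φ.2)
  choose mr hmr using hres
  choose mc hmc using hch
  have h3 : classInner (fun n : N => χ n) (θ : N → ℂ) = ((∑ φ, mc φ * mr φ : ℕ) : ℂ) := by
    have h31 : ∀ n : N, χ n = ∑ φ : IrrCharacter G, (mc φ : ℂ) * (φ : G → ℂ) n := by
      intro n
      conv_lhs => rw [hexp]
      rw [Finset.sum_apply]
      refine Finset.sum_congr rfl fun φ _ => ?_
      rw [Pi.smul_apply, hmc, smul_eq_mul]
    push_cast
    simp only [← hmr]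
    simp only [classInner]
    simp only [h31, Finset.sum_mul, Finset.mul_sum]
    rw [Finset.sum_comm]
    refine Finset.sum_congr rfl fun φ _ => ?_
    refine Finset.sum_congr rfl fun n _ => ?_
    ring
  rw [h3]
  have h4 : mc ψ ≠ 0 := by
    intro h
    apply h1
    rw [hmc, h, Nat.cast_zero]
  have h5 : mr ψ ≠ 0 := by
    intro h
    apply h2
    rw [hmr, h, Nat.cast_zero]
  have h6 : 0 < ∑ φ, mc φ * mr φ :=
    Finset.sum_pos' (fun _ _ => Nat.zero_le _) ⟨ψ, Finset.mem_univ _, Nat.mul_pos (Nat.pos_of_ne_zero h4) (Nat.pos_of_ne_zero h5)⟩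
  exact_mod_cast h6.ne'

end Cfsg.Agent.Lib.BK.NormalL
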