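import Mathlib
import Cfsg.Agent.Lib.BK.NormalL
import Cfsg.Agent.Lib.BK.Main
import Cfsg.Agent.Lib.Char.Ito
import Cfsg.Agent.Lib.TI.FrattiniAction

/-!
# Normal defect groups: passing to the quotient by the commutator subgroup

Setting: `π : G → H` a surjection with kernel in a normal `p`-subgroup `D`, such that `p`-regular elements
of `G` centralizing `D` modulo the kernel centralize `D`.
-/

set_option linter.unusedSectionVars false
set_option linter.style.haveILetI false
set_option autoImplicit false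

namespace Cfsg.Agent.Lib.BK.NormalQ

open Cfsg MonoidAlgebra
open Cfsg.Agent.Lib.Blocks.Local Cfsg.Agent.Lib.Blocks.Central
open Cfsg.Agent.Lib.BlockH.Pairs Cfsg.Agent.Lib.BlockH.BrauerMap Cfsg.Agent.Lib.BlockH.Transport
open Cfsg.Agent.Lib.BlockT.Normal Cfsg.Agent.Lib.BK.NormalL
open Cfsg.Agent.Lib.Char.Basic Cfsg.Agent.Lib.Char.Ortho
open scoped ComplexConjugate commutatorElement

universe u

variable {G H : Type u} [Group G] [Group H] {M : Ideal AlgInt} {p : ℕ}

/-- `C_H(D̄)`. -/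
abbrev Kn (π : G →* H) (D : Subgroup G) : Subgroup H :=
  Subgroup.centralizer ((D.map π : Subgroup H) : Set H)

/-- The image of `C_G(D)` lies in `C_H(D̄)`. -/
theorem map_mem_Kn (π : G →* H) (D : Subgroup G) {c : G} (hc : c ∈ Subgroup.centralizer (D : Set G)) :
    π c ∈ Kn π D := by
  rw [Subgroup.mem_centralizer_iff]
  rintro _ ⟨d, hd, rfl⟩
  rw [← map_mul, ← map_mul, Subgroup.mem_centralizer_iff.mp hc d hd]

/-- The image of `C_G(D)`, as a subgroup of `C_H(D̄)`. -/
abbrev Nn (π : G →* H) (D : Subgroup G) : Subgroup (Kn π D) :=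
  ((Subgroup.centralizer (D : Set G)).map π).subgroupOf (Kn π D)

/-- The map `C_G(D) → N'`. -/
def piC (π : G →* H) (D : Subgroup G) : Subgroup.centralizer (D : Set G) →* Nn π D where
  toFun c := ⟨⟨π c, map_mem_Kn π D c.2⟩, Subgroup.mem_subgroupOf.mpr ⟨c, c.2, rfl⟩⟩
  map_one' := by
    apply Subtype.ext
    apply Subtype.ext
    simp
  map_mul' a b := by
    apply Subtype.ext
    apply Subtype.ext
    simp

@[simp] theorem coe_piC (π : G →* H) (D : Subgroup G) (c : Subgroup.centralizer (D : Set G)) :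
    (((piC π D c : Nn π D) : Kn π D) : H) = π c := rfl

theorem piC_surjective (π : G →* H) (D : Subgroup G) : Function.Surjective (piC π D) := by
  rintro ⟨⟨n, hn⟩, hn'⟩
  obtain ⟨c, hc, rfl⟩ := Subgroup.mem_subgroupOf.mp hn'
  exact ⟨⟨c, hc⟩, rfl⟩

theorem isPGroup_ker_piC [Finite G] [Fact p.Prime] (π : G →* H) {D : Subgroup G} (hD : IsPGroup p D) (hk : π.ker ≤ D) :
    IsPGroup p (piC π D).ker := by
  rintro ⟨⟨c, hc⟩, hk'⟩
  have h1 : π c = 1 := by
    have := congrArg (fun n : Nn π D => ((n : Kn π D) : H)) (MonoidHom.mem_ker.mp hk')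
    simpa using this
  have h2 : c ∈ D := hk (MonoidHom.mem_ker.mpr h1)
  obtain ⟨j, hj⟩ := hD ⟨c, h2⟩
  refine ⟨j, ?_⟩
  apply Subtype.ext
  apply Subtype.ext
  have := congrArg (Subtype.val) hj
  simpa using this

theorem central_ker_piC (π : G →* H) {D : Subgroup G} (hk : π.ker ≤ D) :
    ∀ n ∈ (piC π D).ker, ∀ g : Subgroup.centralizer (D : Set G), n * g = g * n := by
  rintro ⟨c, hc⟩ hk' ⟨g, hg⟩
  have h1 : π c = 1 := by
    have := congrArg (fun n : Nn π D => ((n : Kn π D) : H)) (MonoidHom.mem_ker.mp hk')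
    simpa using this
  have h2 : c ∈ D := hk (MonoidHom.mem_ker.mpr h1)
  apply Subtype.ext
  exact (Subgroup.mem_centralizer_iff.mp hg c h2)

theorem Kn_normal (π : G →* H) (hπ : Function.Surjective π) {D : Subgroup G} (hDn : D.Normal) :
    (Kn π D).Normal := by
  haveI : (D.map π).Normal := Subgroup.Normal.map hDn π hπ
  infer_instance

theorem Nn_normal (π : G →* H) (hπ : Function.Surjective π) {D : Subgroup G} (hDn : D.Normal) :
    (Nn π D).Normal := by
  haveI : (Subgroup.centralizer (D : Set G)).Normal := inferInstance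
  haveI : ((Subgroup.centralizer (D : Set G)).map π).Normal := Subgroup.Normal.map inferInstance π hπ
  exact Subgroup.Normal.subgroupOf inferInstance _

/-- `N'` has `p`-power index in `C_H(D̄)`. -/
theorem index_Nn [Finite H] [hp : Fact p.Prime] [Fintype G] (π : G →* H) (hπ : Function.Surjective π)
    {D : Subgroup G} (hDn : D.Normal)
    (hCL : ∀ g : G, ¬ p ∣ orderOf g → π g ∈ Kn π D → g ∈ Subgroup.centralizer (D : Set G)) :
    ∃ k : ℕ, (Nn π D).index = p ^ k := by
  haveI := Nn_normal π hπ hDn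
  have hpg : IsPGroup p (Kn π D ⧸ Nn π D) := by
    intro q
    obtain ⟨c, rfl⟩ := QuotientGroup.mk'_surjective (Nn π D) q
    obtain ⟨a, m, hm, hord⟩ := Nat.exists_eq_pow_mul_and_not_dvd (n := orderOf c)
      (orderOf_pos _).ne' p hp.out.ne_one
    refine ⟨a, ?_⟩
    rw [← map_pow, QuotientGroup.mk'_apply, QuotientGroup.eq_one_iff]
    have hy : ¬ p ∣ orderOf (((c ^ p ^ a : Kn π D)) : H) := by
      rw [Subgroup.orderOf_coe]
      intro hdvd
      apply hm
      refine hdvd.trans (orderOf_dvd_of_pow_eq_one ?_)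
      rw [← pow_mul, ← hord, pow_orderOf_eq_one]
    obtain ⟨g, hg, hgo⟩ := exists_lift_regular π hπ hy
    have hgK : π g ∈ Kn π D := by
      rw [hg]
      exact (c ^ p ^ a).2
    exact Subgroup.mem_subgroupOf.mpr ⟨g, hCL g hgo hgK, hg⟩
  obtain ⟨k, hk⟩ := IsPGroup.iff_card.mp hpg
  exact ⟨k, by rw [Subgroup.index_eq_card, hk]⟩

section Conj

variable (π : G →* H) (hπ : Function.Surjective π) {D : Subgroup G} (hDn : D.Normal) (x : G)

include hπ hDn in
theorem mem_normalizer_Kn : π x ∈ Subgroup.normalizer ((Kn π D : Subgroup H) : Set H) := by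
  haveI := Kn_normal π hπ hDn
  rw [Subgroup.normalizer_eq_top_iff.mpr inferInstance]
  exact Subgroup.mem_top _

/-- Conjugation by `x̄` on `N'`. -/
def sigmaN : Nn π D ≃* Nn π D where
  toFun n := ⟨conjOfNormalizer (mem_normalizer_Kn π hπ hDn x) n, by
    obtain ⟨c, hc, hcn⟩ := Subgroup.mem_subgroupOf.mp n.2
    refine Subgroup.mem_subgroupOf.mpr ⟨x * c * x⁻¹, ?_, ?_⟩
    · exact (inferInstance : (Subgroup.centralizer (D : Set G)).Normal).conj_mem c hc x
    · rw [map_mul, map_mul, map_inv, hcn]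
      rfl⟩
  invFun n := ⟨(conjOfNormalizer (mem_normalizer_Kn π hπ hDn x)).symm n, by
    obtain ⟨c, hc, hcn⟩ := Subgroup.mem_subgroupOf.mp n.2
    refine Subgroup.mem_subgroupOf.mpr ⟨x⁻¹ * c * x, ?_, ?_⟩
    · have := (inferInstance : (Subgroup.centralizer (D : Set G)).Normal).conj_mem c hc x⁻¹
      simpa using this
    · rw [map_mul, map_mul, map_inv, hcn]
      rfl⟩
  left_inv n := by
    apply Subtype.ext
    simp
  right_inv n := by
    apply Subtype.ext
    simp
  map_mul' a b := by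
    apply Subtype.ext
    simp

@[simp] theorem coe_sigmaN (n : Nn π D) :
    (((sigmaN π hπ hDn x n : Nn π D) : Kn π D) : H) = π x * n * (π x)⁻¹ := rfl

@[simp] theorem coe_sigmaN_symm (n : Nn π D) :
    ((((sigmaN π hπ hDn x).symm n : Nn π D) : Kn π D) : H) = (π x)⁻¹ * n * π x := rfl

/-- Conjugation by `x̄` on `C_H(D̄)`. -/
abbrev tauK : Kn π D ≃* Kn π D := conjOfNormalizer (mem_normalizer_Kn π hπ hDn x)

theorem classInner_conj [Fintype (Nn π D)] (ψ : IrrCharacter (Kn π D)) (η : IrrCharacter (Nn π D)) :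
    classInner (fun n : Nn π D => (irrMap (tauK π hπ hDn x) ψ : Kn π D → ℂ) n)
      (irrMap (sigmaN π hπ hDn x) η : Nn π D → ℂ) =
    classInner (fun n : Nn π D => (ψ : Kn π D → ℂ) n) (η : Nn π D → ℂ) := by
  rw [classInner, classInner]
  congr 1
  exact Equiv.sum_comp (sigmaN π hπ hDn x).symm.toEquiv
    (fun n : Nn π D => (ψ : Kn π D → ℂ) n * conj ((η : Nn π D → ℂ) n))

include hπ hDn in
/-- **Stabilization passes to the quotient.** -/
theorem stabilizes_map [Fintype G] [Fintype H] [hp : Fact p.Prime] (hM : IsPModular p M)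
    [Fintype (Kn π D)] [Fintype (Nn π D)] (hD : IsPGroup p D) (hk : π.ker ≤ D)
    (hidx : ∃ k : ℕ, (Nn π D).index = p ^ k)
    {e₁ : Set (IrrCharacter (Subgroup.centralizer (D : Set G)))} (he₁ : IsPBlock M e₁)
    (η : IrrCharacter (Nn π D))
    (hη : Cfsg.Agent.Lib.Blocks.Quot.inflI (piC π D) (piC_surjective π D) η ∈ e₁)
    (ψ : IrrCharacter (Kn π D)) (hcon : classInner (fun n : Nn π D => (ψ : Kn π D → ℂ) n) (η : Nn π D → ℂ) ≠ 0)
    {x : G} (hx : StabilizesBlock (Subgroup.centralizer (D : Set G)) e₁ x) :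
    StabilizesBlock (Kn π D) (blockOf M (ψ : Kn π D → ℂ)) (π x) := by
  classical
  haveI := isPrime_of_pModular hM
  haveI := Nn_normal π hπ hDn
  refine ⟨mem_normalizer_Kn π hπ hDn x, ?_⟩
  -- the conjugate of `η`
  set σ := sigmaN π hπ hDn x with hσ
  set τ := tauK π hπ hDn x with hτ
  set ξ := Cfsg.Agent.Lib.Blocks.Quot.inflI (piC π D) (piC_surjective π D) η with hξ
  obtain ⟨ξ', hξ', hconj⟩ := hx.2 ξ hη
  have hξ'eq : (ξ' : Subgroup.centralizer (D : Set G) → ℂ) = (irrMap σ η : Nn π D → ℂ) ∘ piC π D := by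
    funext c
    have hk' : x⁻¹ * (c : G) * x ∈ Subgroup.centralizer (D : Set G) := by
      have := (inferInstance : (Subgroup.centralizer (D : Set G)).Normal).conj_mem c c.2 x⁻¹
      simpa using this
    have h1 := hconj ⟨_, hk'⟩ c (by simp; group)
    rw [h1]
    change (η : Nn π D → ℂ) (piC π D ⟨_, hk'⟩) = (η : Nn π D → ℂ) (σ.symm (piC π D c))
    have e : piC π D ⟨_, hk'⟩ = σ.symm (piC π D c) := by
      apply Subtype.ext
      apply Subtype.ext
      simp [hσ]
    rw [e]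
  have hsame₀ : SameBlock M ((η : Nn π D → ℂ) ∘ piC π D) ((irrMap σ η : Nn π D → ℂ) ∘ piC π D) := by
    rw [← hξ'eq]
    have h2 : ξ' ∈ blockOf M (ξ : Subgroup.centralizer (D : Set G) → ℂ) := by
      rw [← isPBlock_eq_blockOf he₁ hη]
      exact hξ'
    exact h2
  have hsame₁ : SameBlock M (η : Nn π D → ℂ) (irrMap σ η : Nn π D → ℂ) :=
    sameBlock_of_comp hM (piC π D) (piC_surjective π D) (isPGroup_ker_piC π hD hk) (central_ker_piC π hk) hsame₀
  have hcon' : classInner (fun n : Nn π D => (irrMap τ ψ : Kn π D → ℂ) n) (irrMap σ η : Nn π D → ℂ) ≠ 0 := by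
    rw [hτ, hσ, classInner_conj]
    exact hcon
  have hsame₂ : SameBlock M (ψ : Kn π D → ℂ) (irrMap τ ψ : Kn π D → ℂ) :=
    Cfsg.Agent.Lib.BlockT.NormalP.sameBlock_of_constituents hM inferInstance hidx hsame₁ hcon hcon'
  intro ψ₁ hψ₁
  refine ⟨irrMap τ ψ₁, ?_, ?_⟩
  · have h3 : SameBlock M (irrMap τ ψ : Kn π D → ℂ) (irrMap τ ψ₁ : Kn π D → ℂ) :=
      sameBlock_comp_mulEquiv τ.symm hψ₁
    exact sameBlock_trans hsame₂ h3
  · intro k k' hk'
    rw [irrMap_apply]
    have e : τ.symm k' = k := by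
      apply Subtype.ext
      rw [hτ, tauK, coe_conjOfNormalizer_symm, hk']
      group
    rw [e]

end Conj

section Chain

variable (π : G →* H) (hπ : Function.Surjective π) {D : Subgroup G}

include hπ in
/-- The chain `η`, `ψ`, `χ` above `e₁`. -/
theorem exists_chain [Fintype G] [Fintype H] [hp : Fact p.Prime] (hM : IsPModular p M)
    [Fintype (Subgroup.centralizer (D : Set G))] [Fintype (Kn π D)] [Fintype (Nn π D)]
    (hD : IsPGroup p D) (hk : π.ker ≤ D)
    {e₁ : Set (IrrCharacter (Subgroup.centralizer (D : Set G)))} (he₁ : IsPBlock M e₁) :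
    ∃ (η : IrrCharacter (Nn π D)) (ψ : IrrCharacter (Kn π D)) (χ : IrrCharacter H),
      Cfsg.Agent.Lib.Blocks.Quot.inflI (piC π D) (piC_surjective π D) η ∈ e₁ ∧
      classInner (fun n : Nn π D => (ψ : Kn π D → ℂ) n) (η : Nn π D → ℂ) ≠ 0 ∧
      classInner (fun k : Kn π D => (χ : H → ℂ) k) (ψ : Kn π D → ℂ) ≠ 0 ∧
      classInner (fun c : Subgroup.centralizer (D : Set G) =>
          (Cfsg.Agent.Lib.Blocks.Quot.inflI π hπ χ : G → ℂ) c)
        (Cfsg.Agent.Lib.Blocks.Quot.inflI (piC π D) (piC_surjective π D) η :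
          Subgroup.centralizer (D : Set G) → ℂ) ≠ 0 := by
  classical
  haveI := isPrime_of_pModular hM
  haveI := Cfsg.Agent.Lib.Char.Ortho.finite_irrCharacter (G := Kn π D)
  letI : Fintype (IrrCharacter (Kn π D)) := Fintype.ofFinite _
  haveI := Cfsg.Agent.Lib.Char.Ortho.finite_irrCharacter (G := Nn π D)
  letI : Fintype (IrrCharacter (Nn π D)) := Fintype.ofFinite _
  haveI := Cfsg.Agent.Lib.Char.Ortho.finite_irrCharacter (G := Subgroup.centralizer (D : Set G))
  letI : Fintype (IrrCharacter (Subgroup.centralizer (D : Set G))) := Fintype.ofFinite _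
  obtain ⟨Bb, hBb, hsub, -⟩ := Cfsg.Agent.Lib.Blocks.Quot.exists_block_map (piC π D) (piC_surjective π D) hM
    (isPGroup_ker_piC π hD hk) he₁
  obtain ⟨η, hη⟩ := isPBlock_nonempty hBb
  obtain ⟨ψ, h1⟩ := Cfsg.Agent.Lib.BlockT.NormalP.exists_irr_over (G := Kn π D) (N := Nn π D) η
  obtain ⟨χ, h2⟩ := Cfsg.Agent.Lib.BlockT.NormalP.exists_irr_over (G := H) (N := Kn π D) ψ
  refine ⟨η, ψ, χ, hsub η hη, h1, h2, ?_⟩
  have h3 := classInner_trans (G := Kn π D) (N := Nn π D) (χ := fun k : Kn π D => (χ : H → ℂ) k)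
    (isCharacter_restrict _ (isCharacter_of_isIrrCharacter χ.2)) h2 h1
  intro h0
  apply h3
  rw [classInner] at h0 ⊢
  have hC : (Nat.card (Subgroup.centralizer (D : Set G)) : ℂ)⁻¹ ≠ 0 :=
    inv_ne_zero (by exact_mod_cast Nat.card_pos.ne')
  have h4 := (mul_eq_zero.mp h0).resolve_left hC
  let F : Nn π D → ℂ := fun n => (χ : H → ℂ) ((n : Kn π D) : H) * conj ((η : Nn π D → ℂ) n)
  have h5 := Cfsg.Agent.Lib.BlockT.Inflate.sum_comp_surj (piC π D) (piC_surjective π D) F
  have h6 : ∑ y : Subgroup.centralizer (D : Set G), F (piC π D y) = 0 := h4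
  rw [h6] at h5
  have hk0 : (Nat.card (piC π D).ker : ℂ) ≠ 0 := by exact_mod_cast Nat.card_pos.ne'
  have h7 := (mul_eq_zero.mp h5.symm).resolve_left hk0
  have h8 : ∑ n : Nn π D, (χ : H → ℂ) ((n : Kn π D) : H) * conj ((η : Nn π D → ℂ) n) = 0 := h7
  rw [h8, mul_zero]

end Chain

section Height

variable {B : Set (IrrCharacter G)}

/-- Height zero. -/
theorem height_eq_zero [Fintype G] [Fintype H] [hp : Fact p.Prime] (hM : IsPModular p M) (π : G →* H)
    (hπ : Function.Surjective π) {D : Subgroup G} (hDn : D.Normal) (hB : IsPBlock M B)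
    (hD : IsDefectGroup p M B D) (hk : π.ker ≤ D)
    (hab : ∀ a ∈ D.map π, ∀ b ∈ D.map π, a * b = b * a) (χ : IrrCharacter H)
    (hχ : Cfsg.Agent.Lib.Blocks.Quot.inflI π hπ χ ∈ B) :
    blockHeight p B (Cfsg.Agent.Lib.Blocks.Quot.inflI π hπ χ : G → ℂ) = 0 := by
  classical
  haveI : (D.map π).Normal := Subgroup.Normal.map hDn π hπ
  have hdeg : charDegree (Cfsg.Agent.Lib.Blocks.Quot.inflI π hπ χ : G → ℂ) = charDegree (χ : H → ℂ) := by
    simp [charDegree, Cfsg.Agent.Lib.Blocks.Quot.inflI]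
  have h1 : charDegree (χ : H → ℂ) ∣ (D.map π).index := by
    obtain ⟨χ, n, ρ, hρ, rfl⟩ := χ
    rw [Cfsg.Agent.Lib.Char.Degree.charDegree_character]
    haveI := hρ
    exact Cfsg.Agent.Lib.Char.Ito.finrank_dvd_index_of_abelian_normal ρ _ hab
  have h2 : (D.map π).index = D.index := by
    rw [Subgroup.index_map, sup_eq_left.mpr hk, MonoidHom.range_eq_top.mpr hπ, Subgroup.index_top, mul_one]
  have h3 := Cfsg.Agent.Lib.Blocks.Inducing.card_eq_pow_blockDefect hM hB hD
  have h4 := D.card_mul_index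
  have hpos : D.index ≠ 0 := Subgroup.index_ne_zero_of_finite
  have hcd : Nat.card D ≠ 0 := Nat.card_pos.ne'
  have hfac : (Nat.card G).factorization p = blockDefect p B + (D.index).factorization p := by
    rw [← h4, Nat.factorization_mul hcd hpos, Finsupp.add_apply, h3, Nat.Prime.factorization_pow hp.out]
    simp
  have hle : (charDegree (χ : H → ℂ)).factorization p ≤ (D.index).factorization p := by
    rw [← h2]
    exact (Nat.factorization_le_iff_dvd (Cfsg.Agent.Lib.Char.Degree.charDegree_pos χ.2).ne'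
      Subgroup.index_ne_zero_of_finite).mpr h1 p
  have hS : sInf ((fun ψ : IrrCharacter G => (charDegree (ψ : G → ℂ)).factorization p) '' B) ≤
      (charDegree (χ : H → ℂ)).factorization p := by
    rw [← hdeg]
    exact Nat.sInf_le ⟨_, hχ, rfl⟩
  rw [blockHeight, hdeg]
  rw [blockDefect] at hfac
  omega

end Height

section Main

variable {B : Set (IrrCharacter G)}

/-- The main step: `p`-regular elements stabilizing `e₁` centralize `D`. -/
theorem mem_centralizer_of_stabilizes [Fintype G] [Fintype H] [hp : Fact p.Prime] (hM : IsPModular p M)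
    (π : G →* H) (hπ : Function.Surjective π) {D : Subgroup G} (hDn : D.Normal) (hB : IsPBlock M B)
    (hD : IsDefectGroup p M B D) (hk : π.ker ≤ D)
    (hab : ∀ a ∈ D.map π, ∀ b ∈ D.map π, a * b = b * a)
    (hCL : ∀ g : G, ¬ p ∣ orderOf g → π g ∈ Kn π D → g ∈ Subgroup.centralizer (D : Set G))
    (heq : ∃ d : ℕ, ∀ χ : IrrCharacter G, χ ∈ B → blockHeight p B (χ : G → ℂ) = 0 → charDegree (χ : G → ℂ) = d)
    {e₁ : Set (IrrCharacter (Subgroup.centralizer (D : Set G)))} (hmax : IsMaximalBrauerPair p M B D e₁)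
    {x : G} (hx : StabilizesBlock (Subgroup.centralizer (D : Set G)) e₁ x) (hxr : ¬ p ∣ orderOf x) :
    x ∈ Subgroup.centralizer (D : Set G) := by
  classical
  haveI := isPrime_of_pModular hM
  letI : Fintype (Subgroup.centralizer (D : Set G)) := Fintype.ofFinite _
  letI : Fintype (Kn π D) := Fintype.ofFinite _
  letI : Fintype (Nn π D) := Fintype.ofFinite _
  haveI := Cfsg.Agent.Lib.Char.Ortho.finite_irrCharacter (G := H)
  letI : Fintype (IrrCharacter H) := Fintype.ofFinite _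
  haveI := Cfsg.Agent.Lib.Char.Ortho.finite_irrCharacter (G := G)
  letI : Fintype (IrrCharacter G) := Fintype.ofFinite _
  have hDp : IsPGroup p D := Cfsg.Agent.Lib.Blocks.Defect2.isDefectGroup_isPGroup hD
  have he₁ := hmax.1.1.2
  obtain ⟨η, ψ, χ, hη, h1, h2, h3⟩ := exists_chain π hπ hM hDp hk he₁
  have hidx := index_Nn π hπ hDn hCL
  have hstab := stabilizes_map π hπ hDn hM hDp hk hidx he₁ η hη ψ h1 hx
  have hpairG := isBrauerPairOf_of_constituent hM hDp hDn (Cfsg.Agent.Lib.Blocks.Quot.inflI π hπ χ)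
    (Cfsg.Agent.Lib.Blocks.Quot.inflI (piC π D) (piC_surjective π D) η) h3
  rw [← isPBlock_eq_blockOf he₁ hη] at hpairG
  have hBχ := eq_of_isBrauerPairOf hM hmax.1 hpairG
  have hχB : Cfsg.Agent.Lib.Blocks.Quot.inflI π hπ χ ∈ B := by
    rw [hBχ]
    exact mem_blockOf_self _
  have hsub := Cfsg.Agent.Lib.Blocks.Quot.blockOf_subset_preimage π hπ hB (ψ := χ) hχB
  obtain ⟨d, hd⟩ := heq
  have hdeg : ∀ χ' ∈ blockOf M (χ : H → ℂ), charDegree (χ' : H → ℂ) = d := by
    intro χ' hχ'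
    have h4 := hsub hχ'
    have h5 := hd _ h4 (height_eq_zero hM π hπ hDn hB hD hk hab χ' h4)
    have h6 : charDegree (Cfsg.Agent.Lib.Blocks.Quot.inflI π hπ χ' : G → ℂ) = charDegree (χ' : H → ℂ) := by
      simp [charDegree, Cfsg.Agent.Lib.Blocks.Quot.inflI]
    rw [← h6, h5]
  have hbB : IsPBlock M (blockOf M (χ : H → ℂ)) := ⟨χ, rfl⟩
  obtain ⟨D₁, f, hm⟩ := Cfsg.Agent.Lib.KleinBlock.Trans.exists_isMaximalBrauerPair hM hbB
  have hD₁ := Cfsg.Agent.Lib.BlockH.MaxPair.isDefectGroup_of_isMaximal hM hm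
  have hnil := (Cfsg.Agent.Lib.BK.Main.of_same_degree hM hbB hD₁ hdeg).2.2
  have hpairH := isBrauerPairOf_of_constituent (G := H) hM (hDp.map π) (Subgroup.Normal.map hDn π hπ) χ ψ h2
  have hxK := hnil.2 (D.map π) (blockOf M (ψ : Kn π D → ℂ)) hpairH (π x) ?_ hstab ?_
  · exact hCL x hxr hxK
  · haveI : (D.map π).Normal := Subgroup.Normal.map hDn π hπ
    rw [Subgroup.normalizer_eq_top_iff.mpr inferInstance]
    exact Subgroup.mem_top _
  · intro h
    exact hxr (h.trans (orderOf_map_dvd π x))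

/-- The forward direction for normal defect groups. -/
theorem nilpotent_of_height_zero [Fintype G] [hp : Fact p.Prime] (hM : IsPModular p M) {D : Subgroup G} (hDn : D.Normal)
    (hB : IsPBlock M B) (hD : IsDefectGroup p M B D)
    (heq : ∃ d : ℕ, ∀ χ : IrrCharacter G, χ ∈ B → blockHeight p B (χ : G → ℂ) = 0 → charDegree (χ : G → ℂ) = d) :
    IsNilpotentBlock p M B := by
  classical
  obtain ⟨e₁, hmax⟩ := Cfsg.Agent.Lib.BP.Nil4.exists_pair_of_defect hM hB hD
  have hDp : IsPGroup p D := Cfsg.Agent.Lib.Blocks.Defect2.isDefectGroup_isPGroup hD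
  refine Cfsg.Agent.Lib.BK.NormalF.nilpotent_of_normal hM hmax hDn fun x hx hxr => ?_
  haveI : (⁅D, D⁆ : Subgroup G).Normal := Subgroup.commutator_normal D D
  letI : Fintype (G ⧸ (⁅D, D⁆ : Subgroup G)) := Fintype.ofFinite _
  have hkD : (⁅D, D⁆ : Subgroup G) ≤ D := Subgroup.commutator_le_self D
  refine mem_centralizer_of_stabilizes hM (QuotientGroup.mk' (⁅D, D⁆ : Subgroup G)) (QuotientGroup.mk'_surjective _)
    hDn hB hD ?_ ?_ ?_ heq hmax hx hxr
  · rw [QuotientGroup.ker_mk']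
    exact hkD
  · rintro _ ⟨a, ha, rfl⟩ _ ⟨b, hb, rfl⟩
    rw [← map_mul, ← map_mul, QuotientGroup.mk'_apply, QuotientGroup.mk'_apply, QuotientGroup.eq]
    have : (a * b)⁻¹ * (b * a) = ⁅b⁻¹, a⁻¹⁆ := by
      rw [commutatorElement_def]
      group
    rw [this]
    exact Subgroup.commutator_mem_commutator (D.inv_mem hb) (D.inv_mem ha)
  · intro g hg hgK
    have hF : (⁅D, D⁆ : Subgroup G) ≤ (frattini D).map D.subtype := by
      rw [← Subgroup.map_subtype_commutator]
      exact Subgroup.map_mono (Cfsg.Agent.Lib.PGroups.Basic.commutator_le_frattini hDp)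
    have hy : g ∈ Cfsg.Agent.Lib.TI.FrattiniAction.trivOn D (⁅D, D⁆ : Subgroup G) := by
      intro q hq
      have h1 := Subgroup.mem_centralizer_iff.mp hgK (QuotientGroup.mk' _ q) ⟨q, hq, rfl⟩
      rw [← map_mul, ← map_mul, QuotientGroup.mk'_apply, QuotientGroup.mk'_apply, QuotientGroup.eq] at h1
      have e : g * q * g⁻¹ * q⁻¹ = (q * g) * ((q * g)⁻¹ * (g * q)) * (q * g)⁻¹ := by group
      rw [e]
      exact Subgroup.Normal.conj_mem inferInstance _ h1 _
    have hco : (orderOf g).Coprime p := ((Nat.Prime.coprime_iff_not_dvd hp.out).mpr hg).symm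
    have hc := Cfsg.Agent.Lib.TI.FrattiniAction.centralizes_of_coprime D _ hDp hF hy hco
    rw [Subgroup.mem_centralizer_iff]
    intro q hq
    exact (hc q hq).symm

end Main

end Cfsg.Agent.Lib.BK.NormalQ
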